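import Cfsg.Agent.Schur.PrimeCert

/-!
The certificate for the part at 3 of the multiplier of the double cover of the Rudvalis group.
-/

set_option autoImplicit false
set_option maxRecDepth 100000

namespace CfsgLib.Rudvalis

/-- The relations between the chosen elements. -/
def rulesThree : List (List ℕ × List ℕ) := [
     ([0, 0, 0], []), ([0, 1], [1, 0]), ([1, 1, 1], []), ([0, 2], [2, 0]), ([1, 2], [2, 1, 0]),
     ([2, 2, 2], []), ([3, 0], [0, 3]), ([3, 1], [2, 2, 3]), ([3, 2], [1, 3])]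

/-- The words rewritten in two ways. -/
def eqsThree : List (List ℕ × List (ℕ × ℕ × Bool) × List (ℕ × ℕ × Bool)) := [
     ([1, 1, 1, 2], [(2, 4, true), (1, 4, true), (0, 4, true), (2, 1, true), (4, 1, true), (3, 1, true), (1, 2, true), (1, 0, true)], [(0, 2, true)]),
     ([3, 0, 1], [(1, 1, true), (0, 7, true), (2, 6, true)], [(0, 6, true), (1, 7, true), (0, 3, true), (1, 3, true)]),
     ([3, 1, 1, 1], [(1, 2, true)], [(0, 7, true), (2, 7, true), (4, 7, true), (0, 5, true), (0, 5, true)]),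
     ([3, 0, 2], [(1, 3, true), (0, 8, true), (1, 6, true)], [(0, 6, true), (1, 8, true), (0, 1, true)]),
     ([3, 2, 2, 2], [(1, 5, true)], [(0, 8, true), (1, 8, true), (2, 8, true), (0, 2, true)])]

/-- The changes of the lifts. -/
def gaugeThree : List (List (ℕ × ℕ)) := [
     [(4, 1)], [], [], []]

/-- The new tails. -/
def picksThree : List (List (ℕ × ℕ)) := [
     [(0, 1)], [(1, 2), (3, 1)], [(2, 2), (4, 1)], [(1, 2), (3, 2)], [], [(2, 2), (4, 2)]]

/-- The certificate. -/
def certThree : Schur.PrimeCert.Cert where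
  p := 3
  n := 3
  rules := rulesThree
  eqs := eqsThree
  gauge := gaugeThree
  picks := picksThree

/-- The words of the chosen elements. -/
def elWordThree : List (List ℕ) := [
     [1, 3, 0, 0, 0, 0, 2, 1, 5, 7, 9, 7, 8, 8, 7, 8, 11, 18, 20],
     [1, 3, 3, 0, 0, 2, 5, 9, 9, 7, 9, 9, 7, 7, 11, 11, 13, 16, 18, 15, 20],
     [1, 3, 0, 3, 3, 0, 2, 0, 4, 9, 7, 8, 7, 8, 7, 7, 7, 13, 10, 10, 12, 16, 19, 15, 20, 20],
     [0, 2, 1, 2, 0, 3, 4, 4, 6, 8, 6, 12, 11, 13, 19, 14]]

/-- Points and elements showing the order. -/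
def spreadThree : List (ℕ × List (List ℕ)) := [
  (164, [
     [], [0, 0], [1], [1, 0], [2], [0], [2, 0], [2, 0, 0], [1, 0, 0]]),
  (0, [
     [], [2, 2, 1, 1], [2, 1, 0]])]

end CfsgLib.Rudvalis
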