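import Cfsg.Agent.Schur.PrimeCert

/-!
A faster evaluation of certificates at the prime two: combinations of tails as bit masks.
-/

set_option autoImplicit false

namespace CfsgLib.Rudvalis

open Schur.PrimeCert

/-- A combination of tails modulo two as a bit mask. -/
def bitsOf : List (ℕ × ℕ) → ℕ
  | [] => 0
  | q :: m => if Nat.beq (q.2 % 2) 1 then Nat.xor (1 <<< q.1) (bitsOf m) else bitsOf m

theorem testBit_bitsOf (m : List (ℕ × ℕ)) (b : ℕ) :
    (bitsOf m).testBit b = decide (coef m b % 2 = 1) := by
  induction m with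
  | nil => simp [bitsOf, coef]
  | cons q m ih =>
    rw [bitsOf, coef]
    by_cases hq : q.2 % 2 = 1
    · rw [if_pos (by rw [hq]; rfl),
        show Nat.xor (1 <<< q.1) (bitsOf m) = (1 <<< q.1) ^^^ bitsOf m from rfl, Nat.testBit_xor,
        Nat.one_shiftLeft, Nat.testBit_two_pow, ih]
      by_cases hb : q.1 = b
      · subst hb
        simp only [beq_self_eq_true, if_true, decide_true]
        by_cases hc : coef m q.1 % 2 = 1 <;> simp [hc] <;> omega
      · simp [hb]
    · rw [if_neg (fun h => hq (Nat.eq_of_beq_eq_true h)), ih]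
      refine decide_eq_decide.2 ?_
      split <;> omega

theorem bitsOf_append (m m' : List (ℕ × ℕ)) : bitsOf (m ++ m') = Nat.xor (bitsOf m) (bitsOf m') := by
  refine Nat.eq_of_testBit_eq fun b => ?_
  show _ = Nat.testBit (bitsOf m ^^^ bitsOf m') b
  rw [Nat.testBit_xor, testBit_bitsOf, testBit_bitsOf, testBit_bitsOf, coef_append]
  by_cases h : coef m b % 2 = 1 <;> by_cases h' : coef m' b % 2 = 1 <;> simp [h, h'] <;> omega

theorem bitsOf_scale (e : ℕ) (m : List (ℕ × ℕ)) :
    bitsOf (scale e m) = if Nat.beq (e % 2) 1 then bitsOf m else 0 := by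
  refine Nat.eq_of_testBit_eq fun b => ?_
  rw [testBit_bitsOf, coef_scale]
  by_cases he : e % 2 = 1
  · rw [if_pos (by rw [he]; rfl), testBit_bitsOf]
    simp [Nat.mul_mod, he]
  · rw [if_neg (fun h => he (Nat.eq_of_beq_eq_true h)), Nat.zero_testBit]
    simp [Nat.mul_mod, show e % 2 = 0 by omega]

/-- A combination of vanishing combinations given by masks. -/
def pickBits (bits : List ℕ) : List (ℕ × ℕ) → ℕ
  | [] => 0
  | q :: l => if Nat.beq (q.2 % 2) 1 then Nat.xor (bits.getD q.1 0) (pickBits bits l) else pickBits bits l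

/-- The check of a certificate at two by bit masks. -/
def okBits (c : Cert) (bits : List ℕ) : Bool :=
  Nat.beq c.p 2 && Nat.beq bits.length c.eqs.length &&
    (List.range bits.length).all (fun k =>
      Nat.beq (bitsOf (eqMask c (c.eqs.getD k ([], [], [])))) (bits.getD k 0)) &&
    (decide (c.picks.length ≤ c.rules.length) && shapeOK c) &&
    (List.range c.picks.length).all fun r =>
      Nat.beq (bitsOf ((r, 1) :: valM c (c.rules.getD r ([], [])).1 ++ valM c (c.rules.getD r ([], [])).2))
        (pickBits bits (c.picks.getD r []))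

theorem ok_of_okBits {c : Cert} {bits : List ℕ} (h : okBits c bits = true) : ok c = true := by
  simp only [okBits, Bool.and_eq_true, List.all_eq_true, List.mem_range, Nat.beq_eq] at h
  obtain ⟨⟨⟨⟨hp, hlen⟩, hbits⟩, hshape⟩, hpick⟩ := h
  have hb : ∀ k, bitsOf (eqMask c (c.eqs.getD k ([], [], []))) = bits.getD k 0 := by
    intro k
    rcases Nat.lt_or_ge k bits.length with hk | hk
    · exact hbits k hk
    · rw [List.getD_eq_default _ _ hk, List.getD_eq_default _ _ (by omega)]
      rfl
  have hsel : ∀ l, bitsOf (select c l) = pickBits bits l := by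
    intro l
    induction l with
    | nil => rfl
    | cons q l ih =>
      rw [select, pickBits, bitsOf_append, bitsOf_scale, hb, ih]
      split <;> [rfl; exact Nat.zero_xor _]
  simp only [ok, Bool.and_eq_true, List.all_eq_true, List.mem_range]
  refine ⟨hshape, fun r hr => ?_⟩
  simp only [pickOK, agree, List.all_eq_true, beq_iff_eq, hp]
  intro b _
  have e : bitsOf ((r, 1) :: valM c (c.rules.getD r ([], [])).1 ++
      scale (2 - 1) (valM c (c.rules.getD r ([], [])).2)) = bitsOf (select c (c.picks.getD r [])) := by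
    rw [hsel, ← hpick r hr, bitsOf_append, bitsOf_append, bitsOf_scale]
    rfl
  have e' := congrArg (fun n => Nat.testBit n b) e
  simp only [testBit_bitsOf, decide_eq_decide] at e'
  omega

end CfsgLib.Rudvalis
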