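import Cfsg.Agent.Rudvalis.Classes
import Cfsg.Agent.Rudvalis.FastCert
import Cfsg.Agent.Rudvalis.CertTwo
import Cfsg.Agent.Rudvalis.CertThree
import Cfsg.Agent.Rudvalis.CertFive

/-!
The certificates for the multiplier evaluated in the double cover of the Rudvalis group.
-/

set_option autoImplicit false
set_option maxRecDepth 100000

namespace CfsgLib.Rudvalis

open CfsgLib.RuLattice CfsgLib.CosetEnum Cfsg Cfsg.Spor
open Schur.PrimeCert (Cert evalW)

/-- The image of a point under a word of chosen elements. -/
def actW (els : List (List ℕ)) : List ℕ → ℕ → ℕ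
  | [], x => x
  | k :: w, x => forceN (actW els w x) fun y => act (els.getD k []) y

/-- Two words of chosen elements have the same value on the base points. -/
def sameW (els : List (List ℕ)) (u v : List ℕ) : Bool :=
  basePts.all fun b => Nat.beq (actW els u b) (actW els v b)

/-- Strictly increasing. -/
def upward : List ℕ → Bool
  | a :: b :: l => Nat.blt a b && upward (b :: l)
  | _ => true

/-- The listed words fix the earlier points and move the present one to distinct places. -/
def spreadOK (els : List (List ℕ)) (n : ℕ) : List ℕ → List (ℕ × List (List ℕ)) → Bool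
  | _, [] => true
  | fixed, (x, ws) :: rest =>
    Nat.blt x NV &&
      ws.all (fun w => w.all (fun k => Nat.blt k n) && fixed.all fun y => Nat.beq (actW els w y) y) &&
      upward (ws.map fun w => actW els w x) && spreadOK els n (x :: fixed) rest

/-- The product of the lengths. -/
def spreadCard : List (ℕ × List (List ℕ)) → ℕ
  | [] => 1
  | e :: rest => e.2.length * spreadCard rest

/-- The checks of a certificate against the group. -/
def groupOK (c : Cert) (els : List (List ℕ)) (sp : List (ℕ × List (List ℕ))) : Bool :=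
  els.all (fun w => w.all fun l => Nat.blt l 22) &&
    (List.range c.rules.length).all (fun r =>
      sameW els (c.rules.getD r ([], [])).1 (c.rules.getD r ([], [])).2) &&
    spreadOK els c.n [] sp && Nat.beq (spreadCard sp) (c.p ^ c.n)

theorem okTwo : okBits certTwo eqBits = true := by decide +kernel

theorem okThree : Schur.PrimeCert.ok certThree = true := by decide +kernel

theorem okFive : Schur.PrimeCert.ok certFive = true := by decide +kernel

theorem groupTwo : groupOK certTwo elWordTwo spreadTwo = true := by decide +kernel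

theorem groupThree : groupOK certThree elWordThree spreadThree = true := by decide +kernel

theorem groupFive : groupOK certFive elWordFive spreadFive = true := by decide +kernel

theorem upward_pairwise : ∀ {l : List ℕ}, upward l = true → l.Pairwise (· < ·)
  | [], _ => List.Pairwise.nil
  | [a], _ => List.pairwise_singleton _ _
  | a :: b :: l, h => by
    rw [upward, Bool.and_eq_true] at h
    have ih := upward_pairwise h.2
    have hab := Nat.le_of_ble_eq_true h.1
    refine List.pairwise_cons.2 ⟨fun x hx => ?_, ih⟩
    rcases List.mem_cons.1 hx with rfl | hx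
    · exact hab
    · exact lt_trans hab ((List.pairwise_cons.1 ih).1 x hx)

theorem E_mem_zero {l : ℕ} (hl : l < 22) : E l ∈ G 0 := by
  have up : ∀ k ≤ 6, G k ≤ G 0 := by
    intro k hk
    induction k with
    | zero => exact le_rfl
    | succ k ih => exact le_trans (G_succ_le (by omega)) (ih (by omega))
  have hmem : ∀ k ≤ 6, ∀ m ∈ levelGens k, E m ∈ G 0 := fun k hk m hm => up k hk (E_mem_G hm)
  have hcov : ∀ m < 22, m % 2 = 0 → ∃ k ≤ 6, m ∈ levelGens k := by decide +kernel
  rcases Nat.mod_two_eq_zero_or_one l with he | he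
  · obtain ⟨k, hk, hm⟩ := hcov l hl he
    exact hmem k hk l hm
  · obtain ⟨k, hk, hm⟩ := hcov (l - 1) (by omega) (by omega)
    rw [show E l = (E (linv l))⁻¹ by rw [E_linv hl, inv_inv],
      show linv l = l - 1 by rw [linv, if_neg (by simp [he])]]
    exact inv_mem (hmem k hk _ hm)

/-- A chosen element of the double cover. -/
noncomputable def elG (els : List (List ℕ)) (h : ∀ k, ∀ l ∈ els.getD k [], l < 22) (k : ℕ) : G 0 :=
  ⟨gword E (els.getD k []), gword_mem _ _ fun l hl => E_mem_zero (h k l hl)⟩

theorem moved_evalW (els : List (List ℕ)) (h : ∀ k, ∀ l ∈ els.getD k [], l < 22) (w : List ℕ) (n : V) :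
    (moved (evalW (elG els h) w : G 0).1 n).val = actW els w n.val := by
  induction w with
  | nil =>
    show (moved 1 n).val = n.val
    rw [moved_one]
  | cons k w ih =>
    rw [Schur.PrimeCert.evalW_cons, Subgroup.coe_mul, moved_mul, actW, forceN_eq, ← ih]
    exact moved_word _ (h k) _

theorem evalW_eq_of_sameW (els : List (List ℕ)) (h : ∀ k, ∀ l ∈ els.getD k [], l < 22) {u v : List ℕ}
    (hs : sameW els u v = true) : evalW (elG els h) u = evalW (elG els h) v := by
  refine inv_mul_eq_one.1 (Subtype.ext ?_)
  refine eq_one_of_fixed fun b hb hlt => ?_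
  have e : moved (evalW (elG els h) u).1 ⟨b, hlt⟩ = moved (evalW (elG els h) v).1 ⟨b, hlt⟩ :=
    Fin.ext (by
      rw [moved_evalW, moved_evalW]
      exact Nat.eq_of_beq_eq_true (List.all_eq_true.1 hs b hb))
  show moved ((evalW (elG els h) u).1⁻¹ * (evalW (elG els h) v).1) _ = _
  rw [moved_mul, ← e, ← moved_mul, inv_mul_cancel, moved_one]

/-- The listed words show a lower bound for the order. -/
theorem spread_le [Finite (G 0)] (els : List (List ℕ)) (h : ∀ k, ∀ l ∈ els.getD k [], l < 22) {n : ℕ}
    (H : Subgroup (G 0)) (hH : ∀ k < n, elG els h k ∈ H) :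
    ∀ (sp : List (ℕ × List (List ℕ))) (fixed : List ℕ), spreadOK els n fixed sp = true →
      spreadCard sp ≤
        Nat.card {g : H // ∀ y ∈ fixed, ∀ hy : y < NV, moved (g : G 0).1 ⟨y, hy⟩ = ⟨y, hy⟩} := by
  intro sp
  induction sp with
  | nil =>
    intro fixed _
    have : Nonempty {g : H // ∀ y ∈ fixed, ∀ hy : y < NV, moved (g : G 0).1 ⟨y, hy⟩ = ⟨y, hy⟩} :=
      ⟨⟨1, fun _ _ _ => moved_one _⟩⟩
    exact Nat.card_pos
  | cons e rest ih =>
    obtain ⟨x, ws⟩ := e
    intro fixed hs
    simp only [spreadOK, Bool.and_eq_true, List.all_eq_true, Nat.blt, Nat.ble_eq, Nat.beq_eq] at hs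
    obtain ⟨⟨⟨hx, hws⟩, hup⟩, hrest⟩ := hs
    have hnd : (ws.map fun w => actW els w x).Nodup :=
      (upward_pairwise hup).imp fun {a b} hab => Nat.ne_of_lt hab
    refine le_trans (Nat.mul_le_mul_left _ (ih (x :: fixed) hrest)) ?_
    show ws.length * _ ≤ _
    rw [← Nat.card_fin ws.length, ← Nat.card_prod]
    refine Nat.card_le_card_of_injective (fun p =>
      ⟨⟨evalW (elG els h) ws[p.1.val], list_prod_mem fun z hz => by
          obtain ⟨k, hk, rfl⟩ := List.mem_map.1 hz
          exact hH k ((hws _ (List.getElem_mem _)).1 k hk)⟩ * p.2.1, fun y hy hlt => ?_⟩) ?_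
    · show moved ((evalW (elG els h) ws[p.1.val]).1 * (p.2.1 : G 0).1) _ = _
      rw [moved_mul, p.2.2 y (List.mem_cons_of_mem _ hy) hlt]
      exact Fin.ext ((moved_evalW els h _ _).trans ((hws _ (List.getElem_mem _)).2 y hy))
    · rintro ⟨i, g⟩ ⟨j, g'⟩ hij
      have e1 := congrArg Subtype.val hij
      have im : ∀ (i : Fin ws.length) (z : G 0), moved z.1 ⟨x, hx⟩ = ⟨x, hx⟩ →
          (moved ((evalW (elG els h) (ws[i.val]'i.2)).1 * z.1) ⟨x, hx⟩).val = actW els (ws[i.val]'i.2) x :=
        fun i z hz => by rw [moved_mul, hz, moved_evalW]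
      have e2 : (evalW (elG els h) (ws[i.val]'i.2)).1 * (g.1 : G 0).1 =
          (evalW (elG els h) (ws[j.val]'j.2)).1 * (g'.1 : G 0).1 :=
        congrArg (fun z : H => (z : G 0).1) e1
      have e3 : actW els (ws[i.val]'i.2) x = actW els (ws[j.val]'j.2) x := by
        rw [← im i _ (g.2 x List.mem_cons_self hx), ← im j _ (g'.2 x List.mem_cons_self hx), e2]
      have hl : ∀ k : Fin ws.length, k.val < (ws.map fun w => actW els w x).length := fun k => by
        rw [List.length_map]; exact k.2
      have e4 : (ws.map fun w => actW els w x)[i.val]'(hl i) = (ws.map fun w => actW els w x)[j.val]'(hl j) := by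
        rw [List.getElem_map, List.getElem_map]; exact e3
      have hij' : i = j := Fin.ext (hnd.getElem_inj_iff.1 e4)
      subst hij'
      exact Prod.ext rfl (Subtype.ext (Subtype.ext (Subtype.ext (mul_left_cancel e2))))

end CfsgLib.Rudvalis
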