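import Cfsg.Agent.Rudvalis.MultCheck
import Cfsg.Agent.SchurMult.Cover

/-!
The Schur multiplier of the Rudvalis group has order two: the double cover is perfect and has trivial multiplier.
-/

set_option autoImplicit false
set_option maxRecDepth 100000

namespace CfsgLib.Rudvalis

open CfsgLib.RuLattice CfsgLib.CosetEnum Cfsg Cfsg.Spor
open Schur.PrimeCert (Cert evalW)
open scoped commutatorElement

attribute [local irreducible] certTwo certThree certFive elWordTwo elWordThree elWordFive spreadTwo spreadThree
  spreadFive eqBits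

theorem not_dvd_of_groupOK {c : Cert} {els : List (List ℕ)} {sp : List (ℕ × List (List ℕ))}
    (hg : groupOK c els sp = true) (hok : Schur.PrimeCert.ok c = true) (hp : c.p.Prime) {m : ℕ}
    (hm : 291852288000 = c.p ^ c.n * m) (hcop : ¬ c.p ∣ m)
    {Γ : Type} [Group Γ] [Finite Γ] {σ : Γ →* G 0} (hσ : Cfsg.IsStemExtension σ) :
    ¬ c.p ∣ Nat.card σ.ker := by
  have : Finite fourRu := Finite.of_injective _ permHom_injective
  simp only [groupOK, Bool.and_eq_true, List.all_eq_true, List.mem_range, Nat.blt, Nat.ble_eq,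
    Nat.beq_eq] at hg
  obtain ⟨⟨⟨hlt, hrel⟩, hsp⟩, hcard⟩ := hg
  have hels : ∀ k, ∀ l ∈ els.getD k [], l < 22 := by
    intro k l hl
    rcases Nat.lt_or_ge k els.length with hk | hk
    · rw [List.getD_eq_getElem _ _ hk] at hl
      exact hlt _ (List.getElem_mem _) l hl
    · rw [List.getD_eq_default _ _ hk] at hl
      simp at hl
  have hr : ∀ r < c.rules.length, evalW (elG els hels) (c.rules.getD r ([], [])).1 =
      evalW (elG els hels) (c.rules.getD r ([], [])).2 := fun r hr => evalW_eq_of_sameW els hels (hrel r hr)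
  set H := Subgroup.closure (elG els hels '' {i | i < c.n})
  have hle : Nat.card H ≤ c.p ^ c.n := by
    have hok' := hok
    simp only [Schur.PrimeCert.ok, Bool.and_eq_true, decide_eq_true_eq] at hok'
    rw [show Nat.card H = (H : Set (G 0)).ncard from Nat.card_coe_set_eq _]
    exact Schur.PrimeCert.ncard_closure_le hp.pos hok'.1.2 _ (fun r hr' => hr r (by omega)) c.n le_rfl
  have hge : c.p ^ c.n ≤ Nat.card H := by
    rw [← hcard]
    refine le_trans (spread_le els hels H (fun k hk => Subgroup.subset_closure ⟨k, hk, rfl⟩) sp [] hsp) ?_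
    exact Nat.card_le_card_of_injective _ Subtype.val_injective
  have hcardH : Nat.card H = c.p ^ c.n := le_antisymm hle hge
  refine Schur.PrimeCert.not_dvd_card_ker_of_cert hσ hp hok _ hr hcardH ?_
  have hi := H.card_mul_index
  rw [hcardH, card_G_zero, hm] at hi
  rwa [Nat.eq_of_mul_eq_mul_left (pow_pos hp.pos _) hi]

theorem coprime_pows {p q : ℕ} (hp : p.Prime) (hq : q.Prime) (h : p ≠ q) (k : ℕ) : (p * p).Coprime (q ^ k) :=
  ((((Nat.coprime_primes hp hq).2 h).pow_right k).mul_left (((Nat.coprime_primes hp hq).2 h).pow_right k))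

theorem cover_trivial : Cfsg.HasCyclicSchurMultiplier (G 0) 1 := by
  have : Finite fourRu := Finite.of_injective _ permHom_injective
  refine Schur.hasCyclicSchurMultiplier_one fun Γ _ _ σ hσ p hp => ?_
  have : Fact p.Prime := ⟨hp⟩
  by_cases h2 : p = 2
  · have e : certTwo.p = 2 ∧ certTwo.n = 15 := by decide +kernel
    have hnd := not_dvd_of_groupOK groupTwo (ok_of_okBits okTwo) (by rw [e.1]; exact Nat.prime_two) (m := 8906625)
      (by rw [e.1, e.2]; norm_num) (by rw [e.1]; norm_num) hσ
    rw [e.1] at hnd; rwa [h2]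
  by_cases h3 : p = 3
  · have e : certThree.p = 3 ∧ certThree.n = 3 := by decide +kernel
    have hnd := not_dvd_of_groupOK groupThree okThree (by rw [e.1]; exact Nat.prime_three) (m := 10809344000)
      (by rw [e.1, e.2]; norm_num) (by rw [e.1]; norm_num) hσ
    rw [e.1] at hnd; rwa [h3]
  by_cases h5 : p = 5
  · have e : certFive.p = 5 ∧ certFive.n = 3 := by decide +kernel
    have hnd := not_dvd_of_groupOK groupFive okFive (by rw [e.1]; exact Nat.prime_five) (m := 2334818304)
      (by rw [e.1, e.2]; norm_num) (by rw [e.1]; norm_num) hσ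
    rw [e.1] at hnd; rwa [h5]
  by_cases hd : p ∣ 291852288000
  · obtain ⟨x, hx⟩ := exists_prime_orderOf_dvd_card' (G := G 0) p (by rw [card_G_zero]; exact hd)
    refine Schur.not_dvd_card_ker_of_isCyclic hσ (Subgroup.zpowers x) fun hi => ?_
    have h := (Subgroup.zpowers x).card_mul_index
    rw [Nat.card_zpowers, hx, card_G_zero] at h
    have hsq : p * p ∣ 291852288000 := ⟨(Subgroup.zpowers x).index / p, by
      rw [mul_assoc, Nat.mul_div_cancel' hi, h]⟩
    rw [show (291852288000 : ℕ) = 2 ^ 15 * 3 ^ 3 * 5 ^ 3 * (7 * 13 * 29) by norm_num] at hsq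
    have c0 : (p * p).Coprime (2 ^ 15 * 3 ^ 3 * 5 ^ 3) :=
      ((coprime_pows hp Nat.prime_two h2 15).mul_right (coprime_pows hp Nat.prime_three h3 3)).mul_right
        (coprime_pows hp Nat.prime_five h5 3)
    have hs := c0.dvd_of_dvd_mul_left hsq
    have hb : p < 52 := by
      have := Nat.le_of_dvd (by norm_num) hs
      nlinarith
    interval_cases p <;> revert hs hp <;> norm_num
  · refine Schur.not_dvd_card_ker_of_isCyclic hσ ⊥ ?_
    rwa [Subgroup.index_bot, card_G_zero]

/-- The double cover over the group. -/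
noncomputable def coverMap : G 0 →* Spor.Ru :=
  (QuotientGroup.mk' (Subgroup.center fourRu)).comp (G 0).subtype

theorem coverMap_surjective : Function.Surjective coverMap := by
  intro x
  have hx : x ∈ (G 0).map (QuotientGroup.mk' (Subgroup.center fourRu)) := by
    rw [G_zero_map_top]; exact Subgroup.mem_top x
  obtain ⟨g, hg, e⟩ := hx
  exact ⟨⟨g, hg⟩, e⟩

theorem coverMap_ker_le : coverMap.ker ≤ Subgroup.center (G 0) := by
  intro g hg
  have hg' : g.1 ∈ Subgroup.center fourRu := (QuotientGroup.eq_one_iff g.1).1 hg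
  exact Subgroup.mem_center_iff.2 fun h => Subtype.ext (Subgroup.mem_center_iff.1 hg' h.1)

theorem card_coverMap_ker : Nat.card coverMap.ker = 2 := by
  have h := coverMap.ker.card_mul_index
  rw [Subgroup.index_ker, MonoidHom.range_eq_top.2 coverMap_surjective, Subgroup.card_top, card_Ru,
    card_G_zero] at h
  exact Nat.eq_of_mul_eq_mul_right (by norm_num : 0 < 145926144000) (h.trans (by norm_num))

theorem pow_twentyNine : ∀ l ∈ levelGens 0, E l ^ 29 = 1 := by
  intro l hl
  have key : ∀ l ∈ levelGens 0, (basePts.all fun b => Nat.beq (act (List.replicate 29 l) b) b) = true := by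
    decide +kernel
  refine eq_one_of_fixed fun b hb hlt => Fin.ext ?_
  have e : E l ^ 29 = gword E (List.replicate 29 l) := by
    rw [gword, List.map_replicate, List.prod_replicate]
  rw [e, moved_word _ fun x hx => by rw [List.eq_of_mem_replicate hx]; exact (gens_lt hl).1]
  exact Nat.eq_of_beq_eq_true (List.all_eq_true.1 (key l hl) b hb)

theorem commutator_Ru : commutator Spor.Ru = ⊤ := by
  have := isSimple
  rcases (inferInstance : (commutator Spor.Ru).Normal).eq_bot_or_eq_top with h | h
  · exfalso
    have hc : ∀ a b : Spor.Ru, a * b = b * a := fun a b => by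
      have hm : ⁅a, b⁆ ∈ commutator Spor.Ru :=
        Subgroup.commutator_mem_commutator (Subgroup.mem_top _) (Subgroup.mem_top _)
      rw [h, Subgroup.mem_bot, commutatorElement_def, mul_inv_eq_one, mul_inv_eq_iff_eq_mul] at hm
      exact hm
    let _ : CommGroup Spor.Ru := { (inferInstance : Group Spor.Ru) with mul_comm := hc }
    have hp := IsSimpleGroup.prime_card (α := Spor.Ru)
    rw [card_Ru] at hp
    norm_num at hp
  · exact h

theorem commutator_cover : commutator (G 0) = ⊤ := by
  have : Finite fourRu := Finite.of_injective _ permHom_injective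
  have htop : (commutator (G 0)).map coverMap = ⊤ := by
    rw [commutator_def, Subgroup.map_commutator, ← MonoidHom.range_eq_map,
      MonoidHom.range_eq_top.2 coverMap_surjective]
    exact commutator_Ru
  rw [eq_top_iff]
  rintro ⟨g, hg⟩ -
  have key : ∀ l ∈ levelGens 0, ∀ hl : E l ∈ G 0, (⟨E l, hl⟩ : G 0) ∈ commutator (G 0) := by
    intro l hl hmem
    obtain ⟨n, hn, e⟩ : coverMap ⟨E l, hmem⟩ ∈ (commutator (G 0)).map coverMap := by
      rw [htop]; exact Subgroup.mem_top _
    have hk : n⁻¹ * ⟨E l, hmem⟩ ∈ coverMap.ker := by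
      rw [MonoidHom.mem_ker, map_mul, map_inv, e, inv_mul_cancel]
    have h2 : (n⁻¹ * ⟨E l, hmem⟩ : G 0) ^ 2 = 1 := by
      have := pow_card_eq_one' (G := coverMap.ker) (x := ⟨_, hk⟩)
      rw [card_coverMap_ker] at this
      exact congrArg Subtype.val this
    rw [← QuotientGroup.eq_one_iff]
    have q2 : (QuotientGroup.mk (⟨E l, hmem⟩ : G 0) : G 0 ⧸ commutator (G 0)) ^ 2 = 1 := by
      have := congrArg (QuotientGroup.mk (s := commutator (G 0))) h2
      rwa [QuotientGroup.mk_pow, QuotientGroup.mk_mul, QuotientGroup.mk_inv,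
        (QuotientGroup.eq_one_iff n).2 hn, inv_one, one_mul, QuotientGroup.mk_one] at this
    have q29 : (QuotientGroup.mk (⟨E l, hmem⟩ : G 0) : G 0 ⧸ commutator (G 0)) ^ 29 = 1 := by
      rw [← QuotientGroup.mk_pow, show (⟨E l, hmem⟩ : G 0) ^ 29 = 1 from
        Subtype.ext (pow_twentyNine l hl), QuotientGroup.mk_one]
    rw [show (29 : ℕ) = 2 * 14 + 1 by norm_num, pow_succ, pow_mul, q2, one_pow, one_mul] at q29
    exact q29
  induction hg using Subgroup.closure_induction with
  | mem x hx =>
    obtain ⟨l, hl, rfl⟩ := hx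
    exact key l hl _
  | one => exact one_mem (commutator (G 0))
  | mul x y hx hy ihx ihy => exact (commutator (G 0)).mul_mem ihx ihy
  | inv x hx ihx => exact (commutator (G 0)).inv_mem ihx

theorem multiplier_Ru : Cfsg.HasCyclicSchurMultiplier Spor.Ru 2 := by
  have : Finite fourRu := Finite.of_injective _ permHom_injective
  have hσ : Cfsg.IsStemExtension coverMap :=
    ⟨coverMap_surjective, coverMap_ker_le, by rw [commutator_cover]; exact le_top⟩
  have : Fact (Nat.Prime 2) := ⟨Nat.prime_two⟩
  exact SchurMult.hasSchurMultiplier_of_trivial_cover hσ cover_trivial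
    (mulEquivOfPrimeCardEq (p := 2) card_coverMap_ker (by simp))

end CfsgLib.Rudvalis
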